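import Cfsg.Agent.Lib.SigL.Lie
import Cfsg.Agent.Lib.LieM.HKK
import Cfsg.Agent.Lib.Coprime.Generation
import Cfsg.Agent.Lib.Coprime.Abelian
import Cfsg.Agent.Lib.Tech.SylowIn

/-! A nilpotent group generated by a closed family of subgroups that act nilpotently on the
centralisers of the hyperplanes of a coprime elementary abelian operator group has bounded class. -/

set_option autoImplicit false

open Subgroup
open scoped commutatorElement

namespace CfsgLib.SigL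

open CfsgLib.LieM CfsgLib.Tech

variable {X : Type*} [Group X]

/-- `[K, Y, …, Y]`. -/
def itc (K Y : Subgroup X) : ℕ → Subgroup X
  | 0 => K
  | n + 1 => ⁅itc K Y n, Y⁆

/-- The derived series of a subgroup. -/
def dS (K : Subgroup X) : ℕ → Subgroup X
  | 0 => K
  | n + 1 => ⁅dS K n, dS K n⁆

theorem itc_mono {K K' Y Y' : Subgroup X} (h : K ≤ K') (h' : Y ≤ Y') (n : ℕ) :
    itc K Y n ≤ itc K' Y' n := by
  induction n with
  | zero => exact h
  | succ n ih => exact commutator_mono ih h'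

theorem itc_add (K Y : Subgroup X) (m n : ℕ) : itc K Y (m + n) = itc (itc K Y m) Y n := by
  induction n with
  | zero => rfl
  | succ n ih => rw [← add_assoc, itc, ih, itc]

theorem dS_mono {K K' : Subgroup X} (h : K ≤ K') (n : ℕ) : dS K n ≤ dS K' n := by
  induction n with
  | zero => exact h
  | succ n ih => exact commutator_mono ih ih

theorem le_normalizer_iSup [Finite X] {ι : Sort*} {A : Subgroup X} {K : ι → Subgroup X}
    (h : ∀ i, A ≤ normalizer (K i : Set X)) : A ≤ normalizer ((⨆ i, K i : Subgroup X) : Set X) :=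
  fun a ha => mem_normalizer_of_cj_le (by
    rw [cj, Subgroup.map_iSup]
    exact iSup_mono fun i => (mem_normalizer_iff_cj.1 (h i ha)).le)

theorem le_normalizer_lcs {A H : Subgroup X} (h : A ≤ normalizer (H : Set X)) (n : ℕ) :
    A ≤ normalizer (H.lowerCentralSeries n : Set X) := by
  induction n with
  | zero => exact h
  | succ n ih => exact Coprime.le_normalizer_commutator ih h

theorem inv_mul_conj_mem {U : Subgroup X} {a g : X} (ha : a ∈ normalizer (U : Set X))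
    (h : g⁻¹ * (a * g * a⁻¹) ∈ U) : ∀ b ∈ zpowers a, g⁻¹ * (b * g * b⁻¹) ∈ U := by
  let S : Subgroup X :=
    { carrier := {b | b ∈ normalizer (U : Set X) ∧ g⁻¹ * (b * g * b⁻¹) ∈ U}
      one_mem' := ⟨one_mem _, by simp⟩
      mul_mem' := fun {b c} hb hc => ⟨mul_mem hb.1 hc.1, by
        rw [show g⁻¹ * (b * c * g * (b * c)⁻¹) =
          g⁻¹ * (b * g * b⁻¹) * (b * (g⁻¹ * (c * g * c⁻¹)) * b⁻¹) by group]
        exact mul_mem hb.2 (conj_mem_of_mem_normalizer hb.1 hc.2)⟩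
      inv_mem' := fun {b} hb => ⟨inv_mem hb.1, by
        rw [show g⁻¹ * (b⁻¹ * g * b⁻¹⁻¹) = b⁻¹ * (g⁻¹ * (b * g * b⁻¹))⁻¹ * b by group]
        exact conj_mem_of_mem_normalizer' hb.1 (inv_mem hb.2)⟩ }
  exact fun b hb => ((zpowers_le (H := S)).2 ⟨ha, h⟩ hb).2

section Lie

variable (H : Subgroup X)

theorem mem_lcs_iff {n : ℕ} {g : H} : g ∈ lcs H n ↔ (g : X) ∈ H.lowerCentralSeries n := by
  rw [← top_subtype_lowerCentralSeries]
  exact (mem_map_iff_mem H.subtype_injective).symm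

theorem lcs_le (n : ℕ) : H.lowerCentralSeries n ≤ H := H.lowerCentralSeries_antitone (Nat.zero_le n)

open scoped _root_.Classical in
/-- The homogeneous element of the Lie ring of `H` defined by an element of the ambient group. -/
noncomputable def ea (n : ℕ) (g : X) : Gr H := if h : g ∈ H then el n ⟨g, h⟩ else 0

variable {H}

theorem ea_coe (n : ℕ) (g : H) : ea H n g = el n g := dif_pos g.2

theorem ea_of {n : ℕ} {g : X} (hg : g ∈ H.lowerCentralSeries n) :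
    ∃ g' ∈ lcs H n, (g' : X) = g := ⟨⟨g, lcs_le H n hg⟩, (mem_lcs_iff H).2 hg, rfl⟩

theorem ea_mul {n : ℕ} {g h : X} (hg : g ∈ H.lowerCentralSeries n)
    (hh : h ∈ H.lowerCentralSeries n) : ea H n (g * h) = ea H n g + ea H n h := by
  obtain ⟨g, hg', rfl⟩ := ea_of hg
  obtain ⟨h, hh', rfl⟩ := ea_of hh
  rw [← coe_mul, ea_coe, ea_coe, ea_coe, el_mul hg' hh']

theorem ea_one (n : ℕ) : ea H n 1 = 0 := (ea_coe n 1).trans (el_one n)

theorem ea_inv {n : ℕ} {g : X} (hg : g ∈ H.lowerCentralSeries n) : ea H n g⁻¹ = -ea H n g := by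
  obtain ⟨g, hg', rfl⟩ := ea_of hg
  rw [← coe_inv, ea_coe, ea_coe, el_inv hg']

theorem ea_eq_zero_iff {n : ℕ} {g : X} (hg : g ∈ H.lowerCentralSeries n) :
    ea H n g = 0 ↔ g ∈ H.lowerCentralSeries (n + 1) := by
  obtain ⟨g, hg', rfl⟩ := ea_of hg
  rw [ea_coe, el_eq_zero_iff hg', mem_lcs_iff]

theorem lie_ea {i j : ℕ} {g h : X} (hg : g ∈ H.lowerCentralSeries i)
    (hh : h ∈ H.lowerCentralSeries j) : ⁅ea H i g, ea H j h⁆ = ea H (i + j + 1) ⁅g, h⁆ := by
  obtain ⟨g, hg', rfl⟩ := ea_of hg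
  obtain ⟨h, hh', rfl⟩ := ea_of hh
  rw [ea_coe, ea_coe, lie_el hg' hh', ← ea_coe]; rfl

variable (H) in
/-- The image of a subgroup in degree `n`. -/
def im (n : ℕ) (K : Subgroup X) : AddSubgroup (Gr H) where
  carrier := {x | ∃ g ∈ K, g ∈ H.lowerCentralSeries n ∧ ea H n g = x}
  add_mem' := by
    rintro _ _ ⟨g, h1, h2, rfl⟩ ⟨h, h3, h4, rfl⟩
    exact ⟨g * h, mul_mem h1 h3, mul_mem h2 h4, ea_mul h2 h4⟩
  zero_mem' := ⟨1, one_mem _, one_mem _, ea_one n⟩
  neg_mem' := by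
    rintro _ ⟨g, h1, h2, rfl⟩
    exact ⟨g⁻¹, inv_mem h1, inv_mem h2, ea_inv h2⟩

variable (H) in
/-- The preimage of an additive subgroup in degree `n`. -/
def pre (n : ℕ) (U : AddSubgroup (Gr H)) : Subgroup X where
  carrier := {g | g ∈ H.lowerCentralSeries n ∧ ea H n g ∈ U}
  mul_mem' := fun hg hh => ⟨mul_mem hg.1 hh.1, by rw [ea_mul hg.1 hh.1]; exact add_mem hg.2 hh.2⟩
  one_mem' := ⟨one_mem _, by rw [ea_one]; exact zero_mem _⟩
  inv_mem' := fun hg => ⟨inv_mem hg.1, by rw [ea_inv hg.1]; exact neg_mem hg.2⟩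

theorem im_le_of_le_pre {n : ℕ} {K : Subgroup X} {U : AddSubgroup (Gr H)} (h : K ≤ pre H n U) :
    im H n K ≤ U := by
  rintro _ ⟨g, h1, -, rfl⟩
  exact (h h1).2

theorem le_pre {n : ℕ} {K : Subgroup X} {U : AddSubgroup (Gr H)}
    (h1 : K ≤ H.lowerCentralSeries n) (h2 : im H n K ≤ U) : K ≤ pre H n U :=
  fun g hg => ⟨h1 hg, h2 ⟨g, hg, h1 hg, rfl⟩⟩

theorem im_mono (n : ℕ) {K K' : Subgroup X} (h : K ≤ K') : im H n K ≤ im H n K' := by
  rintro _ ⟨g, h1, h2⟩
  exact ⟨g, h h1, h2⟩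

theorem im_inf (n : ℕ) (K : Subgroup X) : im H n K ≤ im H n (K ⊓ H.lowerCentralSeries n) := by
  rintro _ ⟨g, h1, h2, h3⟩
  exact ⟨g, ⟨h1, h2⟩, h2, h3⟩

theorem bk_im_le (i j : ℕ) (K K' : Subgroup X) :
    bk (im H i K) (im H j K') ≤ im H (i + j + 1) ⁅K, K'⁆ := by
  rw [bk_le_iff]
  rintro _ ⟨g, h1, h2, rfl⟩ _ ⟨h, h3, h4, rfl⟩
  exact ⟨_, commutator_mem_commutator h1 h3, Core.commutator_lowerCentralSeries_le H i j
    (commutator_mem_commutator h2 h4), (lie_ea h2 h4).symm⟩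

theorem commutator_le_pre {i j : ℕ} {K K' : Subgroup X} (h : K ≤ H.lowerCentralSeries i)
    (h' : K' ≤ H.lowerCentralSeries j) : ⁅K, K'⁆ ≤ pre H (i + j + 1) (bk (im H i K) (im H j K')) :=
  commutator_le.2 fun g hg g' hg' => ⟨Core.commutator_lowerCentralSeries_le H i j
    (commutator_mem_commutator (h hg) (h' hg')), lie_ea (h hg) (h' hg') ▸
      lie_mem_bk ⟨g, hg, h hg, rfl⟩ ⟨g', hg', h' hg', rfl⟩⟩

variable (H) in
/-- The additive subgroup of the Lie ring defined by a sequence of subgroups. -/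
noncomputable def Yl (Q : ℕ → Subgroup X) : AddSubgroup (Gr H) := ⨆ n, im H n (Q n)

theorem Yl_top : Yl H H.lowerCentralSeries = ⊤ := by
  refine eq_top_iff.2 fun x _ => ?_
  induction x using Gr.induction_on with
  | h0 => exact zero_mem _
  | h1 n g hg =>
    exact AddSubgroup.mem_iSup_of_mem n ⟨g, (mem_lcs_iff H).1 hg, (mem_lcs_iff H).1 hg, ea_coe n g⟩
  | h2 x y hx hy => exact add_mem (hx trivial) (hy trivial)

theorem bk_Yl_le (K K' : Subgroup X) :
    bk (Yl H fun _ => K) (Yl H fun _ => K') ≤ Yl H fun _ => ⁅K, K'⁆ :=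
  bk_iSup_left_le fun i => bk_iSup_right_le fun j =>
    (bk_im_le i j K K').trans (le_iSup (fun n => im H n ⁅K, K'⁆) _)

theorem itB_Yl_le (K Y : Subgroup X) (t : ℕ) :
    itB (Yl H fun _ => K) (Yl H fun _ => Y) t ≤ Yl H fun _ => itc K Y t := by
  induction t with
  | zero => exact le_rfl
  | succ t ih => exact (bk_mono ih le_rfl).trans (bk_Yl_le _ _)

theorem Yl_eq_bot {Q : ℕ → Subgroup X} (h : ∀ n, Q n = ⊥) : Yl H Q = ⊥ :=
  le_bot_iff.1 (iSup_le fun n => im_le_of_le_pre (h n ▸ bot_le))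

theorem mem_of_forall_ofP {G : Type*} [Group G] {x : Gr G} {U : AddSubgroup (Gr G)}
    (h : ∀ n, ofP n (toP n x) ∈ U) : x ∈ U := by
  classical
  rw [← DirectSum.sum_support_of (β := Piece G) x]
  exact sum_mem fun n _ => h n

theorem card_smul_eq_zero {G : Type*} [Group G] (x : Gr G) : Nat.card G • x = 0 := by
  induction x using Gr.induction_on with
  | h0 => exact smul_zero _
  | h1 n g hg => rw [← el_pow hg, pow_card_eq_one', el_one]
  | h2 x y hx hy => rw [smul_add, hx, hy, add_zero]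

end Lie

variable [Finite X] {p m : ℕ} {A H : Subgroup X} {s : Finset (Subgroup X)}

/-- A closed family of subgroups generating `H`. -/
structure Fam (p : ℕ) (A H : Subgroup X) (s : Finset (Subgroup X)) (m : ℕ) : Prop where
  pp : p.Prime
  comm : IsMulCommutative A
  exp : ∀ a ∈ A, a ^ p = 1
  ne : A ≠ ⊥
  cop : (Nat.card H).Coprime p
  nH : A ≤ normalizer (H : Set X)
  le : ∀ Y ∈ s, Y ≤ H
  gen : H ≤ ⨆ Y ∈ s, Y
  inv : ∀ Y ∈ s, A ≤ normalizer (Y : Set X)
  cl : ∀ Y ∈ s, ∀ Y' ∈ s, ∀ B ≤ A, B.relIndex A = p →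
    ∃ Z ∈ s, ⁅Y, Y'⁆ ⊓ centralizer (B : Set X) ≤ Z
  nil : ∀ Y ∈ s, ∀ B ≤ A, B.relIndex A = p → itc (H ⊓ centralizer (B : Set X)) Y m = ⊥

omit [Finite X] in
theorem coprime_of_exp (hp : p.Prime) [Finite X] (exp : ∀ a ∈ A, a ^ p = 1) {n : ℕ}
    (h : n.Coprime p) : (Nat.card A).Coprime n := by
  have := Fact.mk hp
  obtain ⟨k, hk⟩ := IsPGroup.iff_card.1 (show IsPGroup p A from fun a =>
    ⟨1, Subtype.ext (by simpa using exp a a.2)⟩)
  rw [hk]
  exact (h.pow_right k).symm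

/-- A sequence of invariant subgroups spanned by the members of the family. -/
structure Good (A H : Subgroup X) (s : Finset (Subgroup X)) (Q : ℕ → Subgroup X) : Prop where
  le : ∀ n, Q n ≤ H.lowerCentralSeries n
  inv : ∀ n, A ≤ normalizer (Q n : Set X)
  gen : ∀ n, im H n (Q n) ≤ ⨆ Y ∈ s, im H n (Y ⊓ Q n)

namespace Fam

variable (h : Fam p A H s m)
include h

theorem cop' {K : Subgroup X} (hK : K ≤ H) : (Nat.card A).Coprime (Nat.card K) :=
  (coprime_of_exp h.pp h.exp h.cop).coprime_dvd_right (card_dvd_of_le hK)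

theorem le_of_hyp {K M : Subgroup X} (hK : K ≤ H) (hn : A ≤ normalizer (K : Set X))
    (hM : ∀ B ≤ A, B.relIndex A = p → K ⊓ centralizer (B : Set X) ≤ M) : K ≤ M :=
  haveI := h.comm
  Coprime.le_of_forall_hyperplane h.pp h.exp h.ne hn (h.cop' hK) hM

theorem comm_le_pre {Y Y' P P' R : Subgroup X} (hY : Y ∈ s) (hY' : Y' ∈ s) (h1 : P ≤ Y)
    (h2 : P' ≤ Y') (n1 : A ≤ normalizer (P : Set X)) (n2 : A ≤ normalizer (P' : Set X)) {n : ℕ}
    (hn : ⁅P, P'⁆ ≤ H.lowerCentralSeries n) (hR : ⁅P, P'⁆ ≤ R) :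
    ⁅P, P'⁆ ≤ pre H n (⨆ Z ∈ s, im H n (Z ⊓ R)) := by
  refine h.le_of_hyp (hn.trans (lcs_le H n)) (Coprime.le_normalizer_commutator n1 n2)
    fun B hB hi => ?_
  obtain ⟨Z, hZ, hle⟩ := h.cl Y hY Y' hY' B hB hi
  refine le_pre (inf_le_left.trans hn) (le_trans (im_mono n (le_inf ?_ (inf_le_left.trans hR)))
    (le_iSup₂ (f := fun Z (_ : Z ∈ s) => im H n (Z ⊓ R)) Z hZ))
  exact (inf_le_inf_right _ (commutator_mono h1 h2)).trans hle

theorem good_lcs : Good A H s H.lowerCentralSeries := by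
  have h0 : im H 0 (H.lowerCentralSeries 0) ≤ ⨆ Y ∈ s, im H 0 (Y ⊓ H.lowerCentralSeries 0) :=
    im_le_of_le_pre (h.gen.trans (iSup₂_le fun Y hY => le_pre (h.le Y hY) ((im_inf 0 Y).trans
      (le_iSup₂ (f := fun Y (_ : Y ∈ s) => im H 0 (Y ⊓ H.lowerCentralSeries 0)) Y hY))))
  refine ⟨fun _ => le_rfl, le_normalizer_lcs h.nH, fun n => ?_⟩
  induction n with
  | zero => exact h0
  | succ n ih =>
    refine (im_le_of_le_pre (commutator_le_pre (i := n) (j := 0) le_rfl le_rfl)).trans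
      ((bk_mono ih h0).trans (bk_iSup_left_le fun Y => bk_iSup_left_le fun hY =>
        bk_iSup_right_le fun Y' => bk_iSup_right_le fun hY' => (bk_im_le _ _ _ _).trans ?_))
    have : ⁅Y ⊓ H.lowerCentralSeries n, Y' ⊓ H.lowerCentralSeries 0⁆ ≤
        H.lowerCentralSeries (n + 1) := commutator_mono inf_le_right inf_le_right
    exact im_le_of_le_pre (h.comm_le_pre hY hY' inf_le_left inf_le_left
      (Coprime.le_normalizer_inf (h.inv Y hY) (le_normalizer_lcs h.nH n))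
      (Coprime.le_normalizer_inf (h.inv Y' hY') h.nH) this this)

theorem good_cent {Z : Subgroup X} (hZ : Z ≤ A) :
    Good A H s fun n => H.lowerCentralSeries n ⊓ centralizer (Z : Set X) := by
  have hZs : Group.IsSolvable Z := Coprime.isSolvable_of_le
    (haveI := h.comm; Coprime.isSolvable_of_isMulCommutative A) hZ
  have nl := le_normalizer_lcs h.nH
  have cop : ∀ K ≤ H, (Nat.card Z).Coprime (Nat.card K) := fun K hK =>
    (h.cop' hK).coprime_dvd_left (card_dvd_of_le hZ)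
  refine ⟨fun _ => inf_le_left, fun n => Coprime.le_normalizer_inf (nl n)
    (Coprime.le_normalizer_centralizer ((le_centralizer_iff.1 (hZ.trans
      (haveI := h.comm; le_centralizer A))).trans (centralizer_le_normalizer _))), fun n => ?_⟩
  set Γ := H.lowerCentralSeries n with hΓ
  set C := centralizer (Z : Set X)
  have hs : H.lowerCentralSeries (n + 1) ≤ Γ := H.lowerCentralSeries_antitone (Nat.le_succ n)
  have hc : ⁅Γ, Γ⁆ ≤ H.lowerCentralSeries (n + 1) := commutator_mono le_rfl (lcs_le H n)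
  have hΓZ : ⁅Γ, Z⁆ ≤ Γ := Coprime.commutator_le_of_le_normalizer (hZ.trans (nl n))
  set Q := ⨆ Y ∈ s, Y ⊓ (Γ ⊓ C) with hQ
  set R := H.lowerCentralSeries (n + 1) ⊔ ⁅Γ, Z⁆ with hR
  have QΓ : Q ≤ Γ ⊓ C := iSup₂_le fun _ _ => inf_le_right
  have h1 : im H n Γ ≤ im H n (Q ⊔ R) := (h.good_lcs.gen n).trans (iSup₂_le fun Y hY =>
    im_mono n (by
      have nY : Z ≤ normalizer ((Y ⊓ Γ : Subgroup X) : Set X) :=
        hZ.trans (Coprime.le_normalizer_inf (h.inv Y hY) (nl n))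
      rw [← Coprime.commutator_sup_centralizer nY (cop _ (inf_le_left.trans (h.le Y hY)))
        (Or.inl hZs), inf_assoc]
      exact sup_le (le_sup_of_le_right (le_sup_of_le_right (commutator_mono inf_le_right le_rfl)))
        (le_sup_of_le_left (le_iSup₂ (f := fun Y (_ : Y ∈ s) => Y ⊓ (Γ ⊓ C)) Y hY))))
  have h2 : R ⊓ C ≤ H.lowerCentralSeries (n + 1) := by
    rw [hR, Coprime.sup_inf_centralizer (hZ.trans (nl (n + 1)))
      (Coprime.le_normalizer_commutator (hZ.trans (nl n)) le_normalizer)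
      ((hΓZ.trans (lcs_le H n)).trans (H.self_le_normalizer_lowerCentralSeries _))
      (cop _ (inf_le_left.trans (lcs_le H _))) (Or.inl hZs)]
    refine sup_le inf_le_left (le_trans ?_ hc)
    rw [inf_comm]
    exact Coprime.centralizer_inf_commutator_le (hZ.trans (nl n)) (cop _ (lcs_le H n))
  refine im_le_of_le_pre fun g hg => ?_
  obtain ⟨g', h3, h4, h5⟩ := h1 ⟨g, hg.1, hg.1, rfl⟩
  have h6 : g'⁻¹ * g ∈ H.lowerCentralSeries (n + 1) := by
    rw [← ea_eq_zero_iff (mul_mem (inv_mem h4) hg.1), ea_mul (inv_mem h4) hg.1, ea_inv h4, h5,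
      neg_add_cancel]
  have h7 : g ∈ Q ⊔ R := by
    rw [← mul_inv_cancel_left g' g]
    exact mul_mem h3 (mem_sup_right (mem_sup_left h6))
  obtain ⟨q, hq, r, hr, rfl⟩ := (Coprime.mem_sup_iff_of_le_normalizer'
    (Coprime.le_normalizer_of_commutator_le (sup_le hs hΓZ) (((commutator_mono le_rfl
      (QΓ.trans inf_le_left)).trans hc).trans le_sup_left))).1 h7
  have h8 := h2 ⟨hr, (C.mul_mem_cancel_left (QΓ hq).2).1 hg.2⟩
  refine mul_mem ((show Q ≤ _ from iSup₂_le fun Y hY => le_pre (inf_le_right.trans inf_le_left)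
    (le_iSup₂ (f := fun Y (_ : Y ∈ s) => im H n (Y ⊓ (Γ ⊓ C))) Y hY)) hq) ⟨hs h8, ?_⟩
  rw [(ea_eq_zero_iff (hs h8)).2 h8]
  exact zero_mem _

theorem good_next {Q : ℕ → Subgroup X} (hQ : Good A H s Q) : ∃ Q', Good A H s Q' ∧
    Yl H Q' = bk (Yl H Q) (Yl H Q) ∧ ∀ K : Subgroup X, (∀ n, Q n ≤ K) → ∀ n, Q' n ≤ ⁅K, K⁆ := by
  let Q' : ℕ → Subgroup X := fun n => ⨆ (Y ∈ s) (Y' ∈ s) (i : ℕ) (j : ℕ) (_ : i + j + 1 = n),
    ⁅Y ⊓ Q i, Y' ⊓ Q j⁆
  have hle : ∀ Y ∈ s, ∀ Y' ∈ s, ∀ i j, ⁅Y ⊓ Q i, Y' ⊓ Q j⁆ ≤ Q' (i + j + 1) :=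
    fun Y hY Y' hY' i j => le_iSup₂_of_le Y hY (le_iSup₂_of_le Y' hY' (le_iSup₂_of_le i j
      (le_iSup_of_le rfl le_rfl)))
  have hsup : ∀ {n} {M : Subgroup X}, (∀ Y ∈ s, ∀ Y' ∈ s, ∀ i j, i + j + 1 = n →
      ⁅Y ⊓ Q i, Y' ⊓ Q j⁆ ≤ M) → Q' n ≤ M := fun hM => iSup₂_le fun Y hY => iSup₂_le fun Y' hY' =>
    iSup₂_le fun i j => iSup_le fun e => hM Y hY Y' hY' i j e
  have hγ : ∀ Y Y' i j, ⁅Y ⊓ Q i, Y' ⊓ Q j⁆ ≤ H.lowerCentralSeries (i + j + 1) := fun Y Y' i j =>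
    (commutator_mono (inf_le_right.trans (hQ.le i)) (inf_le_right.trans (hQ.le j))).trans
      (Core.commutator_lowerCentralSeries_le H i j)
  have hn : ∀ Y ∈ s, ∀ i, A ≤ normalizer ((Y ⊓ Q i : Subgroup X) : Set X) := fun Y hY i =>
    Coprime.le_normalizer_inf (h.inv Y hY) (hQ.inv i)
  refine ⟨Q', ⟨fun n => hsup ?_, fun n => ?_, fun n => im_le_of_le_pre (hsup ?_)⟩,
    le_antisymm (iSup_le fun n => im_le_of_le_pre (hsup ?_)) ?_, fun K hK n => hsup ?_⟩
  · rintro Y - Y' - i j rfl; exact hγ Y Y' i j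
  · exact le_normalizer_iSup fun Y => le_normalizer_iSup fun hY => le_normalizer_iSup fun Y' =>
      le_normalizer_iSup fun hY' => le_normalizer_iSup fun i => le_normalizer_iSup fun j =>
        le_normalizer_iSup fun _ => Coprime.le_normalizer_commutator (hn Y hY i) (hn Y' hY' j)
  · rintro Y hY Y' hY' i j rfl
    exact h.comm_le_pre hY hY' inf_le_left inf_le_left (hn Y hY i) (hn Y' hY' j) (hγ Y Y' i j)
      (hle Y hY Y' hY' i j)
  · rintro Y hY Y' hY' i j rfl g hg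
    have := commutator_le_pre (inf_le_right.trans (hQ.le i)) (inf_le_right.trans (hQ.le j)) hg
    exact ⟨this.1, bk_mono ((im_mono i inf_le_right).trans (le_iSup (fun n => im H n (Q n)) i))
      ((im_mono j inf_le_right).trans (le_iSup (fun n => im H n (Q n)) j)) this.2⟩
  · refine bk_iSup_left_le fun i => bk_iSup_right_le fun j => (bk_mono (hQ.gen i) (hQ.gen j)).trans
      (bk_iSup_left_le fun Y => bk_iSup_left_le fun hY => bk_iSup_right_le fun Y' =>
        bk_iSup_right_le fun hY' => (bk_im_le _ _ _ _).trans ((im_mono _ (hle Y hY Y' hY' i j)).trans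
          (le_iSup (fun n => im H n (Q' n)) _)))
  · rintro Y - Y' - i j -
    exact commutator_mono (inf_le_right.trans (hK i)) (inf_le_right.trans (hK j))

theorem good_iter {Q : ℕ → Subgroup X} (hQ : Good A H s Q) (t : ℕ) : ∃ Q', Good A H s Q' ∧
    Yl H Q' = dB (Yl H Q) t ∧ ∀ K : Subgroup X, (∀ n, Q n ≤ K) → ∀ n, Q' n ≤ dS K t := by
  induction t with
  | zero => exact ⟨Q, hQ, rfl, fun _ hK => hK⟩
  | succ t ih =>
    obtain ⟨Q1, h1, h2, h3⟩ := ih
    obtain ⟨Q2, h4, h5, h6⟩ := h.good_next h1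
    exact ⟨Q2, h4, by rw [h5, h2, dB], fun K hK => h6 _ (h3 K hK)⟩

theorem itB_member {Y : Subgroup X} (hY : Y ∈ s) : itB ⊤ (Yl H fun _ => Y) m = ⊥ := by
  have h1 : (⊤ : AddSubgroup (Gr H)) ≤ ⨆ B : {B : Subgroup X // B ≤ A ∧ B.relIndex A = p},
      Yl H fun _ => H ⊓ centralizer (B.1 : Set X) := by
    rw [← Yl_top]
    refine iSup_le fun n => im_le_of_le_pre (h.le_of_hyp (lcs_le H n) (le_normalizer_lcs h.nH n)
      fun B hB hi => le_pre inf_le_left (le_iSup_of_le ⟨B, hB, hi⟩ (le_iSup_of_le n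
        (im_mono n (inf_le_inf_right _ (lcs_le H n))))))
  refine le_bot_iff.1 (((itB_mono h1 le_rfl m).trans (itB_iSup_le _ _ m)).trans
    (iSup_le fun B => (itB_Yl_le _ _ m).trans (Yl_eq_bot fun _ => h.nil Y hY B.1 B.2.1 B.2.2).le))

theorem itB_good {Q : ℕ → Subgroup X} (hQ : Good A H s Q) (hb : bk (Yl H Q) (Yl H Q) ≤ Yl H Q)
    {d : ℕ} (hd : dB (Yl H Q) d = ⊥) : itB ⊤ (Yl H Q) ((m ^ s.card) ^ d) = ⊥ := by
  refine itB_solvable (Y := fun Y => Yl H fun _ => Y) s (fun Y hY => h.itB_member hY) d _ hb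
    (fun t => ?_) hd
  obtain ⟨Q', h1, h2, -⟩ := h.good_iter hQ t
  rw [← h2]
  exact iSup_le fun n => (h1.gen n).trans (iSup₂_mono fun Y _ => le_inf
    (le_iSup_of_le n (im_mono n inf_le_left)) (le_iSup_of_le n (im_mono n inf_le_right)))

theorem lcs_eq_bot [Group.IsNilpotent H] {a : X} (ha : a ∈ A) {e : ℕ}
    (he : dS (H ⊓ centralizer {a}) e = ⊥) :
    H.lowerCentralSeries ((m ^ s.card) ^ kb ((m ^ s.card) ^ e) p) = ⊥ := by
  have := Fact.mk h.pp
  have hZ : zpowers a ≤ A := zpowers_le.2 ha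
  have nl := le_normalizer_lcs h.nH
  have h1 : itB ⊤ (Yl H fun n => H.lowerCentralSeries n ⊓ centralizer (zpowers a : Set X))
      ((m ^ s.card) ^ e) = ⊥ := by
    refine h.itB_good (h.good_cent hZ) (bk_iSup_left_le fun i => bk_iSup_right_le fun j =>
      (bk_im_le _ _ _ _).trans (le_iSup_of_le (i + j + 1) (im_mono _ (le_inf
        ((commutator_mono inf_le_left inf_le_left).trans
          (Core.commutator_lowerCentralSeries_le H i j))
        (Core.commutator_le_of_le inf_le_right inf_le_right))))) ?_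
    obtain ⟨Q', -, h2, h3⟩ := h.good_iter (h.good_cent hZ) e
    rw [← h2]
    exact Yl_eq_bot fun n => le_bot_iff.1 ((h3 _ (fun n => inf_le_inf (lcs_le H n)
      (centralizer_le (Set.singleton_subset_iff.2 (mem_zpowers a)))) n).trans he.le)
  let f : MulAut H := H.normalizerMonoidHom ⟨a, h.nH ha⟩
  have h2 := smul_dB (p := p) (mapG f.toMonoidHom) (mapG_lie _) (iterate_mapG _ p fun g => by
    have e : f ^ p = 1 := by
      rw [← map_pow, show (⟨a, h.nH ha⟩ : normalizer (H : Set X)) ^ p = 1 from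
        Subtype.ext (h.exp a ha), map_one]
    exact (mulAut_pow_apply f p g).symm.trans (by rw [e]; rfl)) (fun x hx => by
    refine mem_of_forall_ofP fun n => ?_
    obtain ⟨g, hg, e⟩ := exists_cls_eq (toP n x)
    have h2 := toP_mapG f.toMonoidHom n x
    rw [hx, ← e, mapP_cls _ hg, cls_eq_iff hg (map_mem_lcs _ hg), mem_lcs_iff] at h2
    have hg' := (mem_lcs_iff H).1 hg
    obtain ⟨u, hu, hc⟩ := Coprime.exists_mul_mem_centralizer (hZ.trans (nl (n + 1)))
      ((h.cop' (lcs_le H _)).coprime_dvd_left (card_dvd_of_le hZ))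
      (Or.inl (Coprime.isSolvable_zpowers a)) (g : X) (inv_mul_conj_mem (nl _ ha) h2)
    have hu' := H.lowerCentralSeries_antitone (Nat.le_succ n) hu
    refine AddSubgroup.mem_iSup_of_mem n ⟨g * u, ⟨mul_mem hg' hu', hc⟩, mul_mem hg' hu', ?_⟩
    rw [ea_mul hg' hu', (ea_eq_zero_iff hu').2 hu, add_zero, ea_coe, ← e, el]) h1
  have h3 : dB (⊤ : AddSubgroup (Gr H)) (kb ((m ^ s.card) ^ e) p) = ⊥ := by
    refine eq_bot_iff.2 fun x hx => AddSubgroup.mem_bot.2 (AddMonoid.addOrderOf_eq_one_iff.1 ?_)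
    exact Nat.eq_one_of_dvd_coprimes (h.cop.pow_right _)
      (addOrderOf_dvd_of_nsmul_eq_zero (card_smul_eq_zero x)) (addOrderOf_dvd_of_nsmul_eq_zero (h2 x hx))
  have h4 := h.itB_good h.good_lcs (Yl_top (H := H) ▸ le_top) (Yl_top (H := H) ▸ h3)
  rw [Yl_top, ← lcsA_eq] at h4
  refine Core.eq_bot_of_le_commutator_of_isNilpotent (lcs_le H _) fun g hg => ?_
  obtain ⟨g, hg', rfl⟩ := ea_of hg
  have h5 := el_mem_lcsA hg'
  rwa [h4, AddSubgroup.mem_bot, el_eq_zero_iff hg', mem_lcs_iff] at h5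

end Fam

end CfsgLib.SigL
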