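import Cfsg.Agent.Lib.LieM.Eigen
import Cfsg.Agent.Auto.CfsgLib_LieM_lcsA_eq_def

/-! Nilpotent action of a soluble Lie ring spanned by finitely many nilpotently acting pieces, and
Kreknin's theorem for a zero component acting nilpotently (Shalev, Khukhro). -/

set_option autoImplicit false

open scoped TensorProduct

namespace CfsgLib.SigL

open CfsgLib.LieM

universe u

section Plain

variable {L : Type*} [LieRing L]

/-- The bracket of two additive subgroups. -/
def bk (A B : AddSubgroup L) : AddSubgroup L :=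
  AddSubgroup.closure {z | ∃ a ∈ A, ∃ b ∈ B, ⁅a, b⁆ = z}

theorem lie_mem_bk {A B : AddSubgroup L} {a b : L} (ha : a ∈ A) (hb : b ∈ B) : ⁅a, b⁆ ∈ bk A B :=
  AddSubgroup.subset_closure ⟨a, ha, b, hb, rfl⟩

theorem bk_le_iff {A B C : AddSubgroup L} : bk A B ≤ C ↔ ∀ a ∈ A, ∀ b ∈ B, ⁅a, b⁆ ∈ C := by
  refine ⟨fun h a ha b hb => h (lie_mem_bk ha hb), fun h => ?_⟩
  rw [bk, AddSubgroup.closure_le]
  rintro _ ⟨a, ha, b, hb, rfl⟩
  exact h a ha b hb

theorem bk_mono {A B A' B' : AddSubgroup L} (h1 : A ≤ A') (h2 : B ≤ B') : bk A B ≤ bk A' B' :=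
  bk_le_iff.2 fun _ ha _ hb => lie_mem_bk (h1 ha) (h2 hb)

theorem bk_comm (A B : AddSubgroup L) : bk A B = bk B A := by
  have key : ∀ A B : AddSubgroup L, bk A B ≤ bk B A := fun A B =>
    bk_le_iff.2 fun a ha b hb => by rw [← lie_skew]; exact neg_mem (lie_mem_bk hb ha)
  exact le_antisymm (key A B) (key B A)

/-- The elements whose brackets with `B` lie in `C`. -/
def cl (C B : AddSubgroup L) : AddSubgroup L where
  carrier := {a | ∀ b ∈ B, ⁅a, b⁆ ∈ C}
  add_mem' := fun ha ha' b hb => by rw [add_lie]; exact add_mem (ha b hb) (ha' b hb)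
  zero_mem' := fun b _ => by rw [zero_lie]; exact zero_mem _
  neg_mem' := fun ha b hb => by rw [neg_lie]; exact neg_mem (ha b hb)

theorem bk_le_iff_le_cl {A B C : AddSubgroup L} : bk A B ≤ C ↔ A ≤ cl C B := bk_le_iff

theorem bk_iSup_left_le {ι : Sort*} {A : ι → AddSubgroup L} {B C : AddSubgroup L}
    (h : ∀ i, bk (A i) B ≤ C) : bk (⨆ i, A i) B ≤ C :=
  bk_le_iff_le_cl.2 (iSup_le fun i => bk_le_iff_le_cl.1 (h i))

theorem bk_iSup_right_le {ι : Sort*} {A : ι → AddSubgroup L} {B C : AddSubgroup L}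
    (h : ∀ i, bk B (A i) ≤ C) : bk B (⨆ i, A i) ≤ C :=
  (bk_comm _ _).trans_le (bk_iSup_left_le fun i => (bk_comm _ _).trans_le (h i))

theorem bk_sup_left_le {A A' B C : AddSubgroup L} (h : bk A B ≤ C) (h' : bk A' B ≤ C) :
    bk (A ⊔ A') B ≤ C :=
  bk_le_iff_le_cl.2 (sup_le (bk_le_iff_le_cl.1 h) (bk_le_iff_le_cl.1 h'))

theorem bk_sup_right_le {A A' B C : AddSubgroup L} (h : bk B A ≤ C) (h' : bk B A' ≤ C) :
    bk B (A ⊔ A') ≤ C :=
  (bk_comm _ _).trans_le (bk_sup_left_le ((bk_comm _ _).trans_le h) ((bk_comm _ _).trans_le h'))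

theorem bk_bot_left (B : AddSubgroup L) : bk ⊥ B = ⊥ := le_bot_iff.1 (bk_le_iff_le_cl.2 bot_le)

theorem bk_bot_right (B : AddSubgroup L) : bk B ⊥ = ⊥ := (bk_comm _ _).trans (bk_bot_left B)

theorem bk_bk_le {A B C D : AddSubgroup L} (h1 : bk (bk A C) B ≤ D) (h2 : bk A (bk B C) ≤ D) :
    bk (bk A B) C ≤ D := by
  rw [bk_le_iff_le_cl, bk_le_iff]
  intro a ha b hb c hc
  have e : ⁅⁅a, b⁆, c⁆ = ⁅⁅a, c⁆, b⁆ + ⁅a, ⁅b, c⁆⁆ := by
    rw [lie_lie, lie_lie, ← lie_skew c b, ← lie_skew c ⁅a, b⁆, lie_neg, lie_lie]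
    abel
  rw [e]
  exact add_mem (h1 (lie_mem_bk (lie_mem_bk ha hc) hb)) (h2 (lie_mem_bk ha (lie_mem_bk hb hc)))

/-- `[V, P, …, P]`. -/
def itB (V P : AddSubgroup L) : ℕ → AddSubgroup L
  | 0 => V
  | n + 1 => bk (itB V P n) P

/-- The derived series. -/
def dB (M : AddSubgroup L) : ℕ → AddSubgroup L
  | 0 => M
  | n + 1 => bk (dB M n) (dB M n)

theorem itB_add (V P : AddSubgroup L) (m n : ℕ) : itB V P (m + n) = itB (itB V P m) P n := by
  induction n with
  | zero => rfl
  | succ n ih => rw [← add_assoc, itB, ih, itB]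

theorem itB_mono {V V' P P' : AddSubgroup L} (h : V ≤ V') (h' : P ≤ P') (n : ℕ) :
    itB V P n ≤ itB V' P' n := by
  induction n with
  | zero => exact h
  | succ n ih => exact bk_mono ih h'

theorem itB_le {V P : AddSubgroup L} (h : bk V P ≤ V) (n : ℕ) : itB V P n ≤ V := by
  induction n with
  | zero => exact le_rfl
  | succ n ih => exact (bk_mono ih le_rfl).trans h

theorem itB_eq_bot_of_le {V P : AddSubgroup L} {m n : ℕ} (h : itB V P m = ⊥) (hmn : m ≤ n) :
    itB V P n = ⊥ := by
  obtain ⟨k, rfl⟩ := Nat.exists_eq_add_of_le hmn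
  rw [itB_add, h]
  exact le_bot_iff.1 (itB_le (bk_bot_left P).le k)

theorem itB_iSup_le {ι : Sort*} (V : ι → AddSubgroup L) (P : AddSubgroup L) (n : ℕ) :
    itB (⨆ i, V i) P n ≤ ⨆ i, itB (V i) P n := by
  induction n with
  | zero => exact le_rfl
  | succ n ih =>
    exact (bk_mono ih le_rfl).trans (bk_iSup_left_le fun i => le_iSup (fun i => itB (V i) P (n + 1)) i)

theorem bk_itB_le {V D M : AddSubgroup L} (hV : bk V M ≤ V) (hD : bk D M ≤ D) (n : ℕ) :
    bk (itB V D n) M ≤ itB V D n := by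
  induction n with
  | zero => exact hV
  | succ n ih => exact bk_bk_le (bk_mono ih le_rfl) (bk_mono le_rfl hD)

theorem dB_succ' (M : AddSubgroup L) (n : ℕ) : dB M (n + 1) = dB (bk M M) n := by
  induction n with
  | zero => rfl
  | succ n ih => rw [dB, ih, dB]

theorem dB_mono {M M' : AddSubgroup L} (h : M ≤ M') (n : ℕ) : dB M n ≤ dB M' n := by
  induction n with
  | zero => exact h
  | succ n ih => exact bk_mono ih ih

theorem itB_abelian {ι : Type*} {P : ι → AddSubgroup L} {M : AddSubgroup L} {m : ℕ}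
    (hM : bk M M ≤ M) (s : Finset ι) (hP : ∀ i ∈ s, P i ≤ M) (hm : ∀ i ∈ s, itB ⊤ (P i) m = ⊥) :
    ∀ V W : AddSubgroup L, bk V M ≤ V → bk W M ≤ W → bk V (bk M M) ≤ W →
      itB V (⨆ i ∈ s, P i) (m ^ s.card) ≤ W := by
  classical
  induction s using Finset.induction_on with
  | empty => intro V W _ _ _; simp [itB, bk_bot_right]
  | insert i s hi ih =>
    intro V W hV hW hVW
    have ih' := ih (fun j hj => hP j (Finset.mem_insert_of_mem hj))
      fun j hj => hm j (Finset.mem_insert_of_mem hj)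
    have hi' := hP i (Finset.mem_insert_self i s)
    have hs : ⨆ j ∈ s, P j ≤ M := iSup₂_le fun j hj => hP j (Finset.mem_insert_of_mem hj)
    have hIV : ∀ j, itB V (P i) j ≤ V := itB_le ((bk_mono le_rfl hi').trans hV)
    have hU : ∀ j, bk (itB V (P i) j ⊔ W) M ≤ itB V (P i) j ⊔ W := fun j => by
      refine bk_sup_left_le ?_ (hW.trans le_sup_right)
      induction j with
      | zero => exact hV.trans le_sup_left
      | succ j ihj =>
        refine bk_bk_le ((bk_mono ihj le_rfl).trans (bk_sup_left_le le_sup_left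
          (((bk_mono le_rfl hi').trans hW).trans le_sup_right))) ?_
        exact ((bk_mono (hIV j) (bk_mono hi' le_rfl)).trans hVW).trans le_sup_right
    have step : ∀ j n, itB (itB V (P i) j ⊔ W) (P i ⊔ ⨆ j ∈ s, P j) n ≤
        itB (itB V (P i) j ⊔ W) (⨆ j ∈ s, P j) n ⊔ (itB V (P i) (j + 1) ⊔ W) := fun j n => by
      induction n with
      | zero => exact le_sup_left
      | succ n ihn =>
        refine (bk_mono ihn le_rfl).trans (bk_sup_left_le (bk_sup_right_le ?_ le_sup_left) ?_)
        · refine le_trans ?_ le_sup_right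
          refine (bk_mono (itB_le ((bk_mono le_rfl hs).trans (hU j)) n) le_rfl).trans ?_
          exact bk_sup_left_le le_sup_left (((bk_mono le_rfl hi').trans hW).trans le_sup_right)
        · exact ((bk_mono le_rfl (sup_le hi' hs)).trans (hU (j + 1))).trans le_sup_right
    have key : ∀ j, itB V (P i ⊔ ⨆ j ∈ s, P j) (j * m ^ s.card) ≤ itB V (P i) j ⊔ W := fun j => by
      induction j with
      | zero => rw [zero_mul]; exact le_sup_left
      | succ j ihj =>
        rw [Nat.succ_mul, itB_add]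
        refine ((itB_mono ihj le_rfl _).trans (step j _)).trans (sup_le ?_ le_rfl)
        refine ih' _ _ (hU j) (hU (j + 1)) (le_trans (bk_sup_left_le ?_ ?_) le_sup_right)
        exacts [(bk_mono (hIV j) le_rfl).trans hVW, (bk_mono le_rfl hM).trans hW]
    rw [Finset.iSup_insert, Finset.card_insert_of_notMem hi, pow_succ']
    refine (key m).trans (sup_le ?_ le_rfl)
    exact ((itB_mono le_top le_rfl m).trans (hm i (Finset.mem_insert_self i s)).le).trans bot_le

theorem itB_solvable {ι : Type*} {Y : ι → AddSubgroup L} {m : ℕ} (s : Finset ι)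
    (hm : ∀ i ∈ s, itB ⊤ (Y i) m = ⊥) (d : ℕ) : ∀ M : AddSubgroup L, bk M M ≤ M →
      (∀ t, dB M t ≤ ⨆ i ∈ s, Y i ⊓ dB M t) → dB M d = ⊥ → itB ⊤ M ((m ^ s.card) ^ d) = ⊥ := by
  induction d with
  | zero => intro M _ _ h; rw [show M = ⊥ from h]; exact bk_bot_right _
  | succ d ih =>
    intro M hM h1 h2
    have h3 := ih (bk M M) (bk_mono hM hM) (fun t => dB_succ' M t ▸ h1 (t + 1)) (dB_succ' M d ▸ h2)
    have hV : ∀ j, bk (itB ⊤ (bk M M) j) M ≤ itB ⊤ (bk M M) j :=
      bk_itB_le le_top (bk_mono hM le_rfl)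
    have key : ∀ j, itB ⊤ M (j * m ^ s.card) ≤ itB ⊤ (bk M M) j := fun j => by
      induction j with
      | zero => rw [zero_mul]; exact le_rfl
      | succ j ihj =>
        rw [Nat.succ_mul, itB_add]
        exact (itB_mono ihj (h1 0) _).trans (itB_abelian (P := fun i => Y i ⊓ M) hM s
          (fun _ _ => inf_le_right) (fun i hi => le_bot_iff.1
            ((itB_mono le_rfl inf_le_left m).trans (hm i hi).le)) _ _ (hV j) (hV (j + 1)) le_rfl)
    rw [pow_succ]
    exact le_bot_iff.1 ((key _).trans h3.le)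

theorem lcsA_eq (n : ℕ) : lcsA L n = itB ⊤ ⊤ n := by
  induction n with
  | zero => rfl
  | succ n ih => rw [lcsA, itB, bk, ih]; simp

end Plain

section Kreknin

variable {L : Type*} [LieRing L] {n : ℕ}

/-- The zero component of a family. -/
def only (F : ZMod n → AddSubgroup L) : ZMod n → AddSubgroup L := fun j => if j = 0 then F 0 else ⊥

theorem only_mono {E F : ZMod n → AddSubgroup L} (h : E ≤ F) : only E ≤ only F := fun j => by
  simp only [only]; split_ifs; exacts [h 0, le_rfl]

theorem br_only_le_iff {A F C : ZMod n → AddSubgroup L} :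
    br A (only F) ≤ C ↔ ∀ i, ∀ a ∈ A i, ∀ b ∈ F 0, ⁅a, b⁆ ∈ C i := by
  rw [br_le_iff]
  refine ⟨fun h i a ha b hb => by simpa using h i 0 a ha b (by simpa [only] using hb),
    fun h i j a ha b hb => ?_⟩
  simp only [only] at hb
  split_ifs at hb with e
  · rw [e, add_zero]; exact h i a ha b hb
  · rw [AddSubgroup.mem_bot.1 hb, lie_zero]; exact zero_mem _

theorem itBr_mono' {V V' F F' : ZMod n → AddSubgroup L} (h : V ≤ V') (h' : F ≤ F') (k : ℕ) :
    itBr V F k ≤ itBr V' F' k := by
  induction k with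
  | zero => exact h
  | succ k ih => exact br_mono ih h'

theorem br_gen_only {F : ZMod n → AddSubgroup L} (hF : br F F ≤ F) (S : Set (ZMod n)) :
    br (gen F S) (only F) ≤ gen F S := by
  rw [br_le_iff_le_col]
  refine (gen_le (G := gen F S ⊓ col (gen F S) (only F)) ?_ fun j hj =>
    le_inf (le_gen F hj) fun a ha i b hb => ?_).trans inf_le_right
  · have h0 : br (gen F S ⊓ col (gen F S) (only F)) (only F) ≤ gen F S :=
      br_le_iff_le_col.2 inf_le_right
    refine le_inf ((br_mono inf_le_left inf_le_left).trans (br_gen_le _ _)) ?_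
    rw [← br_le_iff_le_col]
    exact br_br_le ((br_mono h0 inf_le_left).trans (br_gen_le _ _))
      ((br_mono inf_le_left h0).trans (br_gen_le _ _))
  · simp only [only] at hb
    split_ifs at hb with e
    · rw [e, add_zero]
      exact le_gen F hj (by simpa using hF _ (lie_mem_br ha hb))
    · rw [AddSubgroup.mem_bot.1 hb, lie_zero]; exact zero_mem _

/-- The bound for the derived length. -/
def kb (m : ℕ) : ℕ → ℕ
  | 0 => 0
  | k + 1 => m * (kb m k + 1) + kb m k

theorem kreknin_aux' [NeZero n] (m k : ℕ) (hk : k ≤ n) : ∀ F : ZMod n → AddSubgroup L,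
    br F F ≤ F → itBr F (only F) m = ⊥ → der F (kb m k) ≤ gen F {j | k ≤ j.val} := by
  induction k with
  | zero => exact fun F _ _ j => le_gen F (Nat.zero_le _)
  | succ k ih =>
    intro F hF h0
    have ih' : ∀ E ≤ F, br E E ≤ E → der E (kb m k) ≤ gen E {j | k ≤ j.val} := fun E h1 h2 =>
      ih (Nat.le_of_succ_le hk) E h2 (le_bot_iff.1 ((itBr_mono' h1 (only_mono h1) m).trans h0.le))
    rw [kb, der_add]
    refine (ih' _ (der_le hF _) (br_der_le hF _)).trans (gen_le (br_gen_le _ _) fun j hj => ?_)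
    rcases (show k ≤ j.val from hj).lt_or_eq with hj | hj
    · exact (der_le hF _ j).trans (le_gen F hj)
    set T := gen F {j | k + 1 ≤ j.val} with hT
    let R : ℕ → ZMod n → AddSubgroup L := fun t i =>
      if i = j then T j ⊔ itBr F (only F) t j else ⊤
    have hR : ∀ t, br (R t) (only F) ≤ R (t + 1) := fun t => br_only_le_iff.2 fun i a ha b hb => by
      simp only [R] at ha ⊢
      split_ifs at ha ⊢ with e
      · obtain ⟨a1, h1, a2, h2, rfl⟩ := AddSubgroup.mem_sup.1 ha
        rw [add_lie]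
        exact add_mem (AddSubgroup.mem_sup_left (br_only_le_iff.1 (br_gen_only hF _) j a1 h1 b hb))
          (AddSubgroup.mem_sup_right (br_only_le_iff.1 le_rfl j a2 h2 b hb))
      · trivial
    have key : ∀ t, der F (t * (kb m k + 1)) ≤ R t := fun t => by
      induction t with
      | zero =>
        intro i
        simp only [R, zero_mul]
        split_ifs with e
        exacts [e ▸ le_sup_right, le_top]
      | succ t iht =>
        rw [Nat.succ_mul, der_add]
        set E := der F (t * (kb m k + 1)) with hE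
        have hEF : E ≤ F := der_le hF _
        have hEE : br E E ≤ E := br_der_le hF _
        refine (br_mono (ih' E hEF hEE) (der_le hEE _)).trans
          (br_gen_le_of hEE fun u hu a ha w b hb => ?_)
        by_cases huw : u + w = j
        · rcases (show k ≤ u.val from hu).lt_or_eq with hu | hu
          · have hw : k + 1 ≤ w.val := by
              have h2 := ZMod.val_add u w
              rw [huw, ← hj] at h2
              have h3 := ZMod.val_lt u
              have h4 := ZMod.val_lt w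
              by_contra hc
              rcases lt_or_ge (u.val + w.val) n with h5 | h5
              · rw [Nat.mod_eq_of_lt h5] at h2; omega
              · rw [Nat.mod_eq_sub_mod h5, Nat.mod_eq_of_lt (by omega)] at h2; omega
            simp only [R, if_pos huw]
            rw [← huw]
            exact AddSubgroup.mem_sup_left
              (br_gen_le _ _ _ (lie_mem_br (le_gen F hu (hEF u ha)) (le_gen F hw (hEF w hb))))
          · obtain rfl : u = j := ZMod.val_injective n (hu.symm.trans hj)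
            obtain rfl := add_eq_left.1 huw
            rw [add_zero]
            exact br_only_le_iff.1 (hR t) u a (iht u ha) b (hEF 0 hb)
        · simp only [R, if_neg huw]; trivial
    have h1 := key m j
    simp only [R, if_true, h0, Pi.bot_apply, sup_bot_eq] at h1
    exact h1

theorem kreknin' [NeZero n] {m : ℕ} {F : ZMod n → AddSubgroup L} (hF : br F F ≤ F)
    (h0 : itBr F (only F) m = ⊥) : der F (kb m n) = ⊥ := by
  refine le_bot_iff.mp ((kreknin_aux' m n le_rfl F hF h0).trans (gen_le ?_ fun j hj => ?_))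
  · exact br_le_iff.mpr fun i j a ha b _ => by
      rw [Pi.bot_apply, AddSubgroup.mem_bot] at ha ⊢
      rw [ha, zero_lie]
  · exact absurd hj (not_le.2 (ZMod.val_lt j))

end Kreknin

section Extend

theorem smul_dB_aux {R : Type} [CommRing R] {L : Type u} [LieRing L] [LieAlgebra R L]
    {p : ℕ} [hp : Fact p.Prime] (φ : L →ₗ[R] L)
    (hφ : ∀ x y, φ ⁅x, y⁆ = ⁅φ x, φ y⁆) (hφp : ∀ x, φ^[p] x = x) {C : AddSubgroup L}
    (hC : ∀ x, φ x = x → x ∈ C) {m : ℕ} (hm : itB ⊤ C m = ⊥)
    {A : Type} [CommRing A] [Algebra R A] [Module.Flat R A]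
    (f : A →ₗ[R] R) (w : ZMod p → A) (hf : f 1 = 1) (hw0 : w 0 = 1)
    (hw : ∀ i j, w (i + j) = w i * w j) (hws : ∑ i, w i = 0) :
    ∀ x ∈ dB (⊤ : AddSubgroup L) (kb m p), p ^ 2 ^ kb m p • x = 0 := by
  let Φ : Module.End A (A ⊗[R] L) := LinearMap.baseChange A φ
  have hΦt : ∀ a x, Φ (a ⊗ₜ x) = a ⊗ₜ φ x := fun a x => rfl
  have hΦ : ∀ x y : A ⊗[R] L, Φ ⁅x, y⁆ = ⁅Φ x, Φ y⁆ := fun x y => by
    induction x with
    | zero => simp
    | add x x' h h' => simp only [add_lie, map_add, h, h']
    | tmul a x =>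
      induction y with
      | zero => simp
      | add y y' h h' => simp only [lie_add, map_add, h, h']
      | tmul b y => simp only [LieAlgebra.ExtendScalars.bracket_tmul, hΦt, hφ]
  have hΦk : ∀ k a x, (Φ ^ k) (a ⊗ₜ x) = a ⊗ₜ φ^[k] x := fun k => by
    induction k with
    | zero => intro a x; rfl
    | succ k ih => intro a x; rw [pow_succ, Module.End.mul_apply, hΦt, ih]; rfl
  have hΦp : Φ ^ p = 1 := by
    refine LinearMap.ext fun x => ?_
    induction x with
    | zero => simp
    | add x x' h h' => simp only [map_add, h, h']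
    | tmul a x => rw [hΦk, hφp]; rfl
  let ex : AddSubgroup L → AddSubgroup (A ⊗[R] L) := fun U =>
    AddSubgroup.closure {z | ∃ a : A, ∃ x ∈ U, a ⊗ₜ x = z}
  have ex_mem : ∀ (U : AddSubgroup L) (a : A), ∀ x ∈ U, a ⊗ₜ x ∈ ex U := fun U a x hx =>
    AddSubgroup.subset_closure ⟨a, x, hx, rfl⟩
  have ex_bk : ∀ U V, bk (ex U) (ex V) ≤ ex (bk U V) := fun U V => by
    rw [bk_le_iff_le_cl, AddSubgroup.closure_le]
    rintro _ ⟨a, x, hx, rfl⟩
    have : ex V ≤ cl (ex (bk U V)) (AddSubgroup.zmultiples (a ⊗ₜ x)) := by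
      rw [AddSubgroup.closure_le]
      rintro _ ⟨b, y, hy, rfl⟩ _ ⟨k, rfl⟩
      simp only [lie_zsmul, LieAlgebra.ExtendScalars.bracket_tmul]
      exact zsmul_mem (ex_mem _ _ _ (bk_comm V U ▸ lie_mem_bk hy hx)) k
    intro y hy
    rw [← lie_skew]
    exact neg_mem (this hy _ (AddSubgroup.mem_zmultiples _))
  have ex_top : ∀ x, x ∈ ex ⊤ := fun x => by
    induction x with
    | zero => exact zero_mem _
    | add x x' h h' => exact add_mem h h'
    | tmul a x => exact ex_mem _ _ _ trivial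
  have hfix : ∀ x, Φ x = x → x ∈ ex C := fun x hx => by
    have h1 := Module.Flat.lTensor_exact A
      (LinearMap.exact_subtype_ker_map (φ - LinearMap.id))
    have h2 : (φ - LinearMap.id).lTensor A x = 0 := by
      rw [LinearMap.lTensor_sub, LinearMap.lTensor_id, LinearMap.sub_apply, sub_eq_zero]
      exact hx
    obtain ⟨y, rfl⟩ := (h1 x).mp h2
    clear h2 hx
    induction y with
    | zero => simp
    | add y y' h h' => rw [map_add]; exact add_mem h h'
    | tmul a y => exact ex_mem _ _ _ (hC _ (sub_eq_zero.mp y.2))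
  let F : ZMod p → AddSubgroup (A ⊗[R] L) := fun i =>
    { carrier := {e | Φ e = w i • e}
      add_mem' := fun {a b} ha hb => by
        rw [Set.mem_setOf_eq] at ha hb ⊢
        rw [map_add, ha, hb, smul_add]
      zero_mem' := by simp
      neg_mem' := fun {a} ha => by
        rw [Set.mem_setOf_eq] at ha ⊢
        rw [map_neg, ha, smul_neg] }
  have hsup : ∀ x : A ⊗[R] L, p • x ∈ ⨆ i, F i := fun x => by
    have h1 : ∀ s : ZMod p, Φ ((Φ ^ s.val) x) = (Φ ^ (s + 1).val) x := fun s => by
      rw [ZMod.val_add, ← pow_eq_pow_mod _ hΦp, ZMod.val_one, pow_succ', Module.End.mul_apply]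
    have h2 : ∀ i : ZMod p, Φ (∑ s : ZMod p, w (-(i * s)) • (Φ ^ s.val) x) =
        w i • ∑ s : ZMod p, w (-(i * s)) • (Φ ^ s.val) x := fun i => by
      rw [map_sum, Finset.smul_sum,
        ← Equiv.sum_comp (Equiv.addRight 1) fun s => w i • w (-(i * s)) • (Φ ^ s.val) x]
      refine Finset.sum_congr rfl fun s _ => ?_
      rw [map_smul, h1, Equiv.coe_addRight, smul_smul, ← hw]
      congr 2
      ring
    have h3 : ∑ i : ZMod p, ∑ s : ZMod p, w (-(i * s)) • (Φ ^ s.val) x = p • x := by
      rw [Finset.sum_comm, Finset.sum_eq_single 0]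
      · simp [hw0]
      · intro s _ hs
        rw [← Finset.sum_smul]
        have : ∑ i : ZMod p, w (-(i * s)) = 0 := by
          rw [← hws, ← Equiv.sum_comp (Equiv.mulRight₀ (-s) (neg_ne_zero.mpr hs)) w]
          simp
        rw [this, zero_smul]
      · simp
    rw [← h3]
    exact sum_mem fun i _ => AddSubgroup.mem_iSup_of_mem i (h2 i)
  have hF : br F F ≤ F := br_le_iff.mpr fun i j e he e' he' => by
    change Φ _ = _
    rw [hΦ, show Φ e = _ from he, show Φ e' = _ from he', smul_lie, lie_smul, hw, mul_smul]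
  have h0 : ∀ t, itBr F (only F) t ≤ fun _ => ex (itB ⊤ C t) := fun t => by
    induction t with
    | zero => exact fun _ x _ => ex_top x
    | succ t ih =>
      refine br_only_le_iff.2 fun i a ha b hb => ex_bk _ _ (lie_mem_bk (ih i ha) (hfix b ?_))
      rw [show Φ b = _ from hb, hw0, one_smul]
  have hc := kreknin' hF (m := m) (le_bot_iff.1 ((h0 m).trans fun _ => by
    rw [hm, AddSubgroup.closure_le]
    rintro _ ⟨a, x, hx, rfl⟩
    rw [AddSubgroup.mem_bot.1 hx, TensorProduct.tmul_zero]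
    exact zero_mem _))
  have key : ∀ n, ∀ x ∈ dB (⊤ : AddSubgroup L) n,
      p ^ 2 ^ n • ((1 : A) ⊗ₜ[R] x) ∈ ⨆ i, der F n i := fun n => by
    induction n with
    | zero => intro x _; rw [pow_zero, pow_one]; exact hsup _
    | succ n ih =>
      intro x hx
      induction hx using AddSubgroup.closure_induction with
      | mem z hz =>
        obtain ⟨x, hx, y, hy, rfl⟩ := hz
        have := lie_mem_iSup_br (ih x hx) (ih y hy)
        rwa [nsmul_lie, lie_nsmul, smul_smul, ← pow_add, ← mul_two, ← pow_succ,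
          LieAlgebra.ExtendScalars.bracket_tmul, one_mul] at this
      | zero => simp
      | add x y _ _ hx hy => rw [TensorProduct.tmul_add, smul_add]; exact add_mem hx hy
      | neg x _ hx => rw [TensorProduct.tmul_neg, smul_neg]; exact neg_mem hx
  intro x hx
  have h1 := key _ x hx
  rw [hc] at h1
  simp only [Pi.bot_apply, iSup_bot, AddSubgroup.mem_bot] at h1
  have h2 := congrArg (fun z => TensorProduct.lid R L (f.rTensor L z)) h1
  simpa [hf] using h2

/-- An automorphism of prime order whose fixed points act nilpotently. -/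
theorem smul_dB {L : Type u} [LieRing L] {p : ℕ} [hp : Fact p.Prime] (φ : L →+ L)
    (hφ : ∀ x y, φ ⁅x, y⁆ = ⁅φ x, φ y⁆) (hφp : ∀ x, φ^[p] x = x) {C : AddSubgroup L}
    (hC : ∀ x, φ x = x → x ∈ C) {m : ℕ} (hm : itB ⊤ C m = ⊥) :
    ∀ x ∈ dB (⊤ : AddSubgroup L) (kb m p), p ^ 2 ^ kb m p • x = 0 := by
  obtain ⟨A, _, h, f, w, hf, hw0, hw, hws⟩ := exists_cyclotomic_ring p
  exact @smul_dB_aux ℤ _ L _ _ p _ φ.toIntLinearMap hφ hφp C hC m hm A _ _ h f w hf hw0 hw hws

end Extend

end CfsgLib.SigL
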